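import Cfsg.Agent.H925.Plus10b

/-!
# Maximal subgroups of the ten-dimensional orthogonal group of plus type (assembly)
-/

set_option autoImplicit false
set_option linter.unusedSectionVars false

namespace Cfsg.Agent.H925

open QuadraticMap Matrix

/-- members of a decomposition are nonzero -/
theorem ne_bot_of_decomp {ι : Type} [Fintype ι] [DecidableEq ι] {F : Type*} [Field F] {t m : ℕ}
    {D : Fin t → Submodule F (ι → F)} (hD : Geo.IsMDecomposition m D) (i : Fin t) : D i ≠ ⊥ := by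
  intro h
  have h1 := hD.finrank_eq i
  rw [h, finrank_bot] at h1
  have := hD.pos
  omega

theorem subfield_ne_top {F : Type*} [Field F] [Fintype F] {F₀ : Subfield F} {r : ℕ} (hr : r.Prime)
    (hcard : Fintype.card F = Nat.card F₀ ^ r) : F₀ ≠ ⊤ := by
  rintro rfl
  have h1 : Nat.card (⊤ : Subfield F) = Fintype.card F := by
    rw [← Nat.card_eq_fintype_card]
    exact Nat.card_congr Subfield.topEquiv.toEquiv
  rw [h1] at hcard
  have h2 : 1 < Fintype.card F := Fintype.one_lt_card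
  have h3 : Fintype.card F ^ 1 < Fintype.card F ^ r := Nat.pow_lt_pow_right h2 hr.one_lt
  rw [pow_one] at h3
  omega

theorem plus10_maximal {F : Type*} [Field F] [Fintype F] (Q : (Fin 10 → F) → F)
    (hQ : Cfsg.Geo.IsNondegenerateQuadraticForm Q) (hplus : Cfsg.Geo.IsPlusTypeOn Q ⊤)
    (H : Subgroup (Matrix.GeneralLinearGroup (Fin 10) F))
    (hH : Cfsg.Geo.IsMaximalIn (Cfsg.Geo.omegaGL Q) H) :
    (∃ W : Submodule F (Fin 10 → F), W ≠ ⊥ ∧ Cfsg.Geo.IsTotallySingularQuad Q W ∧ Module.finrank F W ≠ 4 ∧ H = Cfsg.Geo.subspaceStabilizer W ⊓ Cfsg.Geo.omegaGL Q) ∨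
    (Odd (Fintype.card F) ∧ ∃ W : Submodule F (Fin 10 → F), W ≠ ⊥ ∧ W ≠ ⊤ ∧ Odd (Module.finrank F W) ∧ 2 * Module.finrank F W ≠ 10 ∧ Cfsg.Geo.IsNondegenerateOn (QuadraticMap.polar Q) W ∧ H = Cfsg.Geo.subspaceStabilizer W ⊓ Cfsg.Geo.omegaGL Q) ∨
    (∃ W : Submodule F (Fin 10 → F), Module.finrank F W = 2 ∧ Cfsg.Geo.IsNondegenerateOn (QuadraticMap.polar Q) W ∧ ¬ Cfsg.Geo.IsPlusTypeOn Q W ∧ H = Cfsg.Geo.subspaceStabilizer W ⊓ Cfsg.Geo.omegaGL Q) ∨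
    (4 ≤ Fintype.card F ∧ ∃ W : Submodule F (Fin 10 → F), Module.finrank F W = 2 ∧ Cfsg.Geo.IsNondegenerateOn (QuadraticMap.polar Q) W ∧ Cfsg.Geo.IsPlusTypeOn Q W ∧ H = Cfsg.Geo.subspaceStabilizer W ⊓ Cfsg.Geo.omegaGL Q) ∨
    (∃ W : Submodule F (Fin 10 → F), Module.finrank F W = 4 ∧ Cfsg.Geo.IsNondegenerateOn (QuadraticMap.polar Q) W ∧ H = Cfsg.Geo.subspaceStabilizer W ⊓ Cfsg.Geo.omegaGL Q) ∨
    (¬ Odd (Fintype.card F) ∧ ∃ v : (Fin 10 → F), Q v ≠ 0 ∧ H = Cfsg.Geo.subspaceStabilizer (Submodule.span F {v}) ⊓ Cfsg.Geo.omegaGL Q) ∨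
    ((∃ p : ℕ, p.Prime ∧ Fintype.card F = p ∧ (p % 4 = 1)) ∧ ∃ D : Fin 10 → Submodule F (Fin 10 → F), Cfsg.Geo.IsOrthogonalMDecomposition Q 1 D ∧ H = Cfsg.Geo.decompositionStabilizer D ⊓ Cfsg.Geo.omegaGL Q) ∨
    (7 ≤ Fintype.card F ∧ ∃ D : Fin 5 → Submodule F (Fin 10 → F), Cfsg.Geo.IsOrthogonalMDecomposition Q 2 D ∧ H = Cfsg.Geo.decompositionStabilizer D ⊓ Cfsg.Geo.omegaGL Q) ∨
    (Fintype.card F % 4 = 1 ∧ ∃ D : Fin 2 → Submodule F (Fin 10 → F), Cfsg.Geo.IsOrthogonalMDecomposition Q 5 D ∧ H = Cfsg.Geo.decompositionStabilizer D ⊓ Cfsg.Geo.omegaGL Q) ∨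
    (Fintype.card F % 4 = 3 ∧ ∃ D : Fin 2 → Submodule F (Fin 10 → F), Cfsg.Geo.IsNondegenerateMDecomposition (QuadraticMap.polar Q) 5 D ∧ ¬ Cfsg.Geo.AreIsometricFor Q (D 0) (D 1) ∧ H = Cfsg.Geo.decompositionStabilizer D ⊓ Cfsg.Geo.omegaGL Q) ∨
    (Odd (Fintype.card F) ∧ ∃ K : Subalgebra F (Matrix (Fin 10) (Fin 10) F), Cfsg.Geo.IsFieldSubalgebra 2 K ∧ Cfsg.Geo.IsSelfAdjointFor (QuadraticMap.polar Q) K ∧ H = Cfsg.Geo.subalgebraNormalizer K ⊓ Cfsg.Geo.omegaGL Q) ∨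
    (∃ (F₀ : Subfield F) (r : ℕ) (P : Matrix.GeneralLinearGroup (Fin 10) F) (ζ : F), r.Prime ∧ Fintype.card F = Nat.card F₀ ^ r ∧ ζ ≠ 0 ∧ Cfsg.Geo.IsQuadFormRationalStructure (fun v : Fin 10 → F => ζ * Q v) F₀ P ∧ H = Cfsg.Geo.subfieldSubgroup F₀ P ⊓ Cfsg.Geo.omegaGL Q) ∨
    Cfsg.Geo.InOrthogonalResidualClass H := by
  have hn : Fintype.card (Fin 10) = 10 := Fintype.card_fin 10
  have h5 : 5 ≤ Fintype.card (Fin 10) := by rw [hn]; norm_num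
  have h6 : 6 ≤ Fintype.card (Fin 10) := by rw [hn]; norm_num
  have hle := hH.1.le
  -- the two ways to conclude
  have hS : ∀ W : Submodule F (Fin 10 → F), W ≠ ⊥ → W ≠ ⊤ → H ≤ Geo.subspaceStabilizer W →
      H = Geo.subspaceStabilizer W ⊓ Geo.omegaGL Q := fun W h0 h1 h =>
    eq_inf_of_isMaximalIn hH h (omegaGL_not_le_subspaceStabilizer hQ h5 h0 h1)
  have hW : ∀ W : Submodule F (Fin 10 → F), ∀ k : ℕ, Module.finrank F W = k → 0 < k → k < 10 →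
      W ≠ ⊥ ∧ W ≠ ⊤ := by
    intro W k hk h0 h1
    constructor
    · rintro rfl
      rw [finrank_bot] at hk
      omega
    · rintro rfl
      rw [finrank_top, Module.finrank_fintype_fun_eq_card, hn] at hk
      omega
  have hDec : ∀ {t m : ℕ} (D : Fin t → Submodule F (Fin 10 → F)), Geo.IsMDecomposition m D →
      H ≤ Geo.decompositionStabilizer D → H = Geo.decompositionStabilizer D ⊓ Geo.omegaGL Q := fun D hD h =>
    eq_inf_of_isMaximalIn hH h (omegaGL_not_le_decompositionStabilizer hQ h6 hD.two_le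
      (fun i => ne_bot_of_decomp hD i) hD.indep)
  by_cases hirr : Geo.ActsIrreducibly (Geo.matrixSet H)
  · rcases plus10_irreducible hn hQ hplus hle hirr  with ⟨hp, D, hD, h⟩ | ⟨h7, D, hD, h⟩ |
      ⟨h1, D, hD, h⟩ | ⟨ho, K, hK, hsa, h⟩ | ⟨F₀, r, P, ζ, hr, hcard, hζ, hrat, h⟩ | h
    · exact Or.inr (Or.inr (Or.inr (Or.inr (Or.inr (Or.inr (Or.inl
        ⟨hp, D, hD, hDec D hD.decomp.decomp h⟩))))))
    · exact Or.inr (Or.inr (Or.inr (Or.inr (Or.inr (Or.inr (Or.inr (Or.inl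
        ⟨h7, D, hD, hDec D hD.decomp.decomp h⟩)))))))
    · exact Or.inr (Or.inr (Or.inr (Or.inr (Or.inr (Or.inr (Or.inr (Or.inr (Or.inl
        ⟨h1, D, hD, hDec D hD.decomp.decomp h⟩))))))))
    · exact Or.inr (Or.inr (Or.inr (Or.inr (Or.inr (Or.inr (Or.inr (Or.inr (Or.inr (Or.inr (Or.inl
        ⟨ho, K, hK, hsa, eq_inf_of_isMaximalIn hH h
          (omegaGL_not_le_subalgebraNormalizer hQ h5 le_rfl hK)⟩))))))))))
    · exact Or.inr (Or.inr (Or.inr (Or.inr (Or.inr (Or.inr (Or.inr (Or.inr (Or.inr (Or.inr (Or.inr (Or.inl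
        ⟨F₀, r, P, ζ, hr, hcard, hζ, hrat, eq_inf_of_isMaximalIn hH h
          (omegaGL_not_le_subfieldSubgroup hQ h5 (subfield_ne_top hr hcard) P)⟩)))))))))))
    · exact Or.inr (Or.inr (Or.inr (Or.inr (Or.inr (Or.inr (Or.inr (Or.inr (Or.inr (Or.inr (Or.inr (Or.inr
        h)))))))))))
  · rcases plus10_reducible hn hQ hplus hle hirr with ⟨W, hW0, hs, h4, h⟩ | ⟨ho, W, hW0, hW1, hWo, h10, hnd, h⟩ |
      ⟨W, h2, hnd, hnp, h⟩ | ⟨hq, W, h2, hnd, hp, h⟩ | ⟨W, h4, hnd, h⟩ | ⟨ho, v, hv, h⟩ | ⟨h1, D, hD, h⟩ |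
      ⟨h3, D, hD, hni, h⟩
    · have hWt : W ≠ ⊤ := by
        rintro rfl
        have := two_mul_finrank_le hQ hs
        rw [finrank_top, Module.finrank_fintype_fun_eq_card, hn] at this
        omega
      exact Or.inl ⟨W, hW0, hs, h4, hS W hW0 hWt h⟩
    · exact Or.inr (Or.inl ⟨ho, W, hW0, hW1, hWo, h10, hnd, hS W hW0 hW1 h⟩)
    · obtain ⟨a, b⟩ := hW W 2 h2 (by norm_num) (by norm_num)
      exact Or.inr (Or.inr (Or.inl ⟨W, h2, hnd, hnp, hS W a b h⟩))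
    · obtain ⟨a, b⟩ := hW W 2 h2 (by norm_num) (by norm_num)
      exact Or.inr (Or.inr (Or.inr (Or.inl ⟨hq, W, h2, hnd, hp, hS W a b h⟩)))
    · obtain ⟨a, b⟩ := hW W 4 h4 (by norm_num) (by norm_num)
      exact Or.inr (Or.inr (Or.inr (Or.inr (Or.inl ⟨W, h4, hnd, hS W a b h⟩))))
    · have hv0 : v ≠ 0 := by
        rintro rfl
        exact hv (Q_zero hQ)
      obtain ⟨a, b⟩ := hW (Submodule.span F {v}) 1 (finrank_span_singleton hv0) (by norm_num) (by norm_num)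
      exact Or.inr (Or.inr (Or.inr (Or.inr (Or.inr (Or.inl ⟨ho, v, hv, hS _ a b h⟩)))))
    · exact Or.inr (Or.inr (Or.inr (Or.inr (Or.inr (Or.inr (Or.inr (Or.inr (Or.inl
        ⟨h1, D, hD, hDec D hD.decomp.decomp h⟩))))))))
    · exact Or.inr (Or.inr (Or.inr (Or.inr (Or.inr (Or.inr (Or.inr (Or.inr (Or.inr (Or.inl
        ⟨h3, D, hD, hni, hDec D hD.decomp h⟩)))))))))

end Cfsg.Agent.H925
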