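import Cfsg.Agent.H925.OrthPlane2

/-!
# Orthogonal decompositions into hyperbolic planes over fields with 4 and 5 elements
-/

set_option autoImplicit false
set_option linter.unusedSectionVars false

namespace Cfsg.Agent.H925

open QuadraticMap Matrix

variable {ι : Type} [Fintype ι] [DecidableEq ι] {F : Type*} [Field F]

/-- arithmetic in the field with four elements -/
theorem exists_omega [Fintype F] (hF : Fintype.card F = 4) :
    (2 : F) = 0 ∧ ∃ w : F, w ^ 2 + w + 1 = 0 ∧ ∀ a : F, a ≠ 0 → a = 1 ∨ a = w ∨ a = w ^ 2 := by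
  classical
  have h2 : (2 : F) = 0 := by
    have h4 : (4 : F) = 0 := by
      have := Nat.cast_card_eq_zero F
      rw [hF] at this
      exact_mod_cast this
    have : (2 : F) * 2 = 0 := by linear_combination h4
    exact mul_self_eq_zero.1 this
  refine ⟨h2, ?_⟩
  have hpow : ∀ a : F, a ≠ 0 → a ^ 3 = 1 := by
    intro a ha
    have := FiniteField.pow_card_sub_one_eq_one a ha
    rwa [hF] at this
  obtain ⟨w, hw0, hw1⟩ : ∃ w : F, w ≠ 0 ∧ w ≠ 1 := by
    by_contra hcon
    push Not at hcon
    have h3 : (Finset.univ : Finset F) ⊆ {0, 1} := by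
      intro a _
      by_cases ha : a = 0
      · simp [ha]
      · simp [hcon a ha]
    have h5 := Finset.card_le_card h3
    rw [Finset.card_univ, hF] at h5
    have h6 : ({0, 1} : Finset F).card ≤ 2 := Finset.card_le_two
    omega
  have hw : w ^ 2 + w + 1 = 0 := by
    have h3 := hpow w hw0
    have h5 : (w - 1) * (w ^ 2 + w + 1) = 0 := by linear_combination h3
    exact (mul_eq_zero.1 h5).resolve_left (sub_ne_zero.2 hw1)
  refine ⟨w, hw, fun a ha => ?_⟩
  have h3 := hpow a ha
  have hw3 := hpow w hw0
  have h5 : (a - 1) * ((a - w) * (a - w ^ 2)) = 0 := by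
    linear_combination h3 + (- a ^ 2 + a * w - w + 1) * hw
  rcases mul_eq_zero.1 h5 with h | h
  · exact Or.inl (sub_eq_zero.1 h)
  · rcases mul_eq_zero.1 h with h | h
    · exact Or.inr (Or.inl (sub_eq_zero.1 h))
    · exact Or.inr (Or.inr (sub_eq_zero.1 h))

/-- bases of the members give a basis of the space -/
theorem exists_collected {t m : ℕ} {D : Fin t → Submodule F (ι → F)} (hD : Geo.IsMDecomposition m D)
    (b : ∀ i, Module.Basis (Fin m) F (D i)) :
    ∃ B : Module.Basis (Fin t × Fin m) F (ι → F), ∀ i k, B (i, k) = (b i k : ι → F) := by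
  have hint : DirectSum.IsInternal D :=
    (DirectSum.isInternal_submodule_iff_iSupIndep_and_iSup_eq_top D).2 ⟨hD.indep, hD.iSup_eq_top⟩
  refine ⟨(hint.collectedBasis b).reindex (Equiv.sigmaEquivProd (Fin t) (Fin m)), fun i k => ?_⟩
  rw [Module.Basis.reindex_apply]
  have : (Equiv.sigmaEquivProd (Fin t) (Fin m)).symm (i, k) = ⟨i, k⟩ := rfl
  rw [this, DirectSum.IsInternal.collectedBasis_coe]

/-- two linearly independent vectors form a basis of a plane -/
theorem exists_basis_plane {W : Submodule F (ι → F)} (hd : Module.finrank F W = 2) {p r : ι → F} (hp : p ∈ W)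
    (hr : r ∈ W) (hli : LinearIndependent F ![p, r]) :
    ∃ b : Module.Basis (Fin 2) F W, (b 0 : ι → F) = p ∧ (b 1 : ι → F) = r := by
  have hli' : LinearIndependent F ![(⟨p, hp⟩ : W), ⟨r, hr⟩] := by
    rw [LinearIndependent.pair_iff] at hli ⊢
    intro s t h
    apply hli s t
    have := congrArg Subtype.val h
    simpa using this
  refine ⟨basisOfLinearIndependentOfCardEqFinrank hli' (by rw [Fintype.card_fin, hd]), ?_, ?_⟩
  · rw [coe_basisOfLinearIndependentOfCardEqFinrank]; rfl
  · rw [coe_basisOfLinearIndependentOfCardEqFinrank]; rfl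

/-- **q = 4**: the stabiliser of an orthogonal decomposition into hyperbolic planes lies in a subfield group -/
theorem plus_planes_four [Fintype F] (hF : Fintype.card F = 4) {Q : (ι → F) → F}
    (hQ : Geo.IsNondegenerateQuadraticForm Q) {t : ℕ} {D : Fin t → Submodule F (ι → F)}
    (hD : Geo.IsOrthogonalMDecomposition Q 2 D) (hp : ∀ i, Geo.IsPlusTypeOn Q (D i)) (F₀ : Subfield F) :
    ∃ P : GL ι F, Geo.IsQuadFormRationalStructure Q F₀ P ∧
      Geo.decompositionStabilizer D ⊓ Cfsg.isometryGroup F Q ≤ Geo.subfieldSubgroup F₀ P := by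
  classical
  obtain ⟨h2, w, hw, hw'⟩ := exists_omega hF
  choose x hx y hy hQx hQy hxy hspan hval using
    fun i => exists_hyp_of_plus hQ (hD.decomp.nondegenerate i) (hD.decomp.decomp.finrank_eq i) (hp i)
  have hw0 : w ≠ 0 := by
    rintro rfl
    have : (1 : F) = 0 := by linear_combination hw
    exact one_ne_zero this
  have hw3 : w * w ^ 2 = 1 := by linear_combination (w - 1) * hw
  have hli : ∀ i, LinearIndependent F ![x i + y i, w • x i + (w ^ 2) • y i] := by
    intro i
    rw [LinearIndependent.pair_iff]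
    intro s u hsu
    have e : s • (x i + y i) + u • (w • x i + (w ^ 2) • y i) = (s + u * w) • x i + (s + u * w ^ 2) • y i := by
      module
    rw [e] at hsu
    have hbil := hQ.polar_bilinear
    have hxx : polar Q (x i) (x i) = 0 := by rw [polar_self hQ, hQx, mul_zero]
    have hyy : polar Q (y i) (y i) = 0 := by rw [polar_self hQ, hQy, mul_zero]
    have e1 : polar Q ((s + u * w) • x i + (s + u * w ^ 2) • y i) (y i) = s + u * w := by
      rw [hbil.add_left, hbil.smul_left, hbil.smul_left, hxy, hyy]; ring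
    have e2 : polar Q (x i) ((s + u * w) • x i + (s + u * w ^ 2) • y i) = s + u * w ^ 2 := by
      rw [hbil.add_right, hbil.smul_right, hbil.smul_right, hxy, hxx]; ring
    rw [hsu] at e1 e2
    have z1 : polar Q 0 (y i) = 0 := polar_zero_left (qf hQ) (y i)
    have z2 : polar Q (x i) 0 = 0 := polar_zero_right (qf hQ) (x i)
    rw [z1] at e1
    rw [z2] at e2
    have hu : u = 0 := by
      have h3 : u * (w ^ 2 - w) = 0 := by linear_combination e1 - e2
      rcases mul_eq_zero.1 h3 with h | h
      · exact h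
      · exfalso
        have : (1 : F) = 0 := by linear_combination hw - h - w * h2
        exact one_ne_zero this
    refine ⟨?_, hu⟩
    rw [hu] at e1
    linear_combination -e1
  choose b hb0 hb1 using fun i => exists_basis_plane (hD.decomp.decomp.finrank_eq i)
    ((D i).add_mem (hx i) (hy i)) ((D i).add_mem ((D i).smul_mem w (hx i)) ((D i).smul_mem (w ^ 2) (hy i))) (hli i)
  obtain ⟨B, hB⟩ := exists_collected hD.decomp.decomp b
  have hB0 : ∀ i, B (i, 0) = x i + y i := fun i => by rw [hB, hb0]
  have hB1 : ∀ i, B (i, 1) = w • x i + (w ^ 2) • y i := fun i => by rw [hB, hb1]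
  have hBD : ∀ i k, B (i, k) ∈ D i := fun i k => by rw [hB]; exact (b i k).2
  have hQB : ∀ i k, Q (B (i, k)) = 1 := by
    intro i k
    fin_cases k
    · show Q (B (i, 0)) = 1
      rw [hB0]
      have := hval i 1 1
      rwa [one_smul, one_smul, one_mul] at this
    · show Q (B (i, 1)) = 1
      rw [hB1, hval, hw3]
  -- vectors of norm one in the members
  have hone : ∀ i, ∀ v ∈ D i, Q v = 1 → v = B (i, 0) ∨ v = B (i, 1) ∨ v = B (i, 0) + B (i, 1) := by
    intro i v hv hQv
    obtain ⟨a, c, rfl⟩ := hspan i v hv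
    rw [hval] at hQv
    have ha : a ≠ 0 := by
      rintro rfl
      rw [zero_mul] at hQv
      exact zero_ne_one hQv
    rw [hB0, hB1]
    rcases hw' a ha with h | h | h
    · left
      have hc : c = 1 := by rw [h, one_mul] at hQv; exact hQv
      rw [h, hc, one_smul, one_smul]
    · right; left
      have hc : c = w ^ 2 := by
        rw [h] at hQv
        exact mul_left_cancel₀ hw0 (by rw [hQv, hw3])
      rw [h, hc]
    · right; right
      have hc : c = w := by
        rw [h] at hQv
        exact mul_left_cancel₀ (pow_ne_zero 2 hw0) (by rw [hQv, mul_comm, hw3])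
      rw [h, hc]
      have e1 : w ^ 2 = 1 + w := by linear_combination hw - (1 + w) * h2
      have e3 : w = 1 + w ^ 2 := by linear_combination w * h2 - hw
      have e2 : x i + y i + (w • x i + w ^ 2 • y i) = (1 + w) • x i + (1 + w ^ 2) • y i := by module
      rw [e2, ← e1, ← e3]
  obtain ⟨e, P, hP, hPe⟩ := exists_GL_of_basis B
  -- the polar form on the basis
  have hpolB : ∀ k l, polar Q (B k) (B l) ∈ F₀ := by
    rintro ⟨i, k⟩ ⟨j, l⟩
    by_cases hij : i = j
    · subst hij
      by_cases hkl : k = l
      · subst hkl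
        rw [polar_self hQ, h2, zero_mul]
        exact F₀.zero_mem
      · have h01 : polar Q (B (i, 0)) (B (i, 1)) = 1 := by
          rw [hB0, hB1]
          have e2 : x i + y i + (w • x i + w ^ 2 • y i) = (1 + w) • x i + (1 + w ^ 2) • y i := by module
          have e3 := hval i 1 1
          rw [one_smul, one_smul, one_mul] at e3
          show Q (x i + y i + (w • x i + w ^ 2 • y i)) - Q (x i + y i) - Q (w • x i + w ^ 2 • y i) = 1
          rw [e2, hval, hval, e3]
          linear_combination hw - h2
        have h10 : polar Q (B (i, 1)) (B (i, 0)) = 1 := by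
          rw [Cfsg.Agent.H922.polar_symm]; exact h01
        fin_cases k <;> fin_cases l
        · exact absurd rfl hkl
        · show polar Q (B (i, 0)) (B (i, 1)) ∈ F₀
          rw [h01]; exact F₀.one_mem
        · show polar Q (B (i, 1)) (B (i, 0)) ∈ F₀
          rw [h10]; exact F₀.one_mem
        · exact absurd rfl hkl
    · rw [hD.decomp.orthogonal i j hij _ (hBD i k) _ (hBD j l)]
      exact F₀.zero_mem
  refine ⟨P, ?_, ?_⟩
  · intro u hu
    rw [hP]
    have h1 : ∀ s : Finset ι, Q (∑ i ∈ s, u i • B (e i)) ∈ F₀ := by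
      intro s
      induction s using Finset.induction_on with
      | empty => rw [Finset.sum_empty, Q_zero hQ]; exact F₀.zero_mem
      | insert a s ha ih =>
        rw [Finset.sum_insert ha, Q_add' hQ, hQ.smul]
        have h3 : Q (B (e a)) = 1 := hQB (e a).1 (e a).2
        rw [h3, mul_one]
        refine F₀.add_mem (F₀.add_mem (F₀.pow_mem (hu a) 2) ih) ?_
        have hf := hermForm_polar hQ
        rw [hf.sum_right]
        refine F₀.sum_mem fun i _ => ?_
        rw [hQ.polar_bilinear.smul_left, hQ.polar_bilinear.smul_right]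
        exact F₀.mul_mem (hu a) (F₀.mul_mem (hu i) (hpolB _ _))
    exact h1 _
  · rintro g ⟨hgD, hgI⟩
    apply Cfsg.Agent.H922.mem_subfieldSubgroup_of_entries
    intro i j
    rw [hPe]
    obtain ⟨σ, hσ⟩ := exists_perm_of_mem hgD
    obtain ⟨j', k'⟩ := e j
    have hrepr : ∀ k l, (B.repr (B k)) l ∈ F₀ := by
      intro k l
      rw [Module.Basis.repr_self, Finsupp.single_apply]
      split_ifs
      · exact F₀.one_mem
      · exact F₀.zero_mem
    rcases hone (σ j') _ (hσ j' _ (hBD j' k')) (by rw [mem_iso_iff.1 hgI, hQB]) with h | h | h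
    · rw [h]; exact hrepr _ _
    · rw [h]; exact hrepr _ _
    · rw [h, map_add, Finsupp.add_apply]
      exact F₀.add_mem (hrepr _ _) (hrepr _ _)

/-- **q = 5**: the stabiliser of an orthogonal decomposition into hyperbolic planes stabilises a frame -/
theorem plus_planes_five [Fintype F] (hF : Fintype.card F = 5) {Q : (ι → F) → F}
    (hQ : Geo.IsNondegenerateQuadraticForm Q) {t : ℕ} {D : Fin t → Submodule F (ι → F)}
    (hD : Geo.IsOrthogonalMDecomposition Q 2 D) (hp : ∀ i, Geo.IsPlusTypeOn Q (D i)) :
    ∃ D' : Fin (t * 2) → Submodule F (ι → F), Geo.IsOrthogonalMDecomposition Q 1 D' ∧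
      Geo.decompositionStabilizer D ⊓ Cfsg.isometryGroup F Q ≤ Geo.decompositionStabilizer D' := by
  classical
  have h5 : (5 : F) = 0 := by
    have := Nat.cast_card_eq_zero F
    rw [hF] at this
    exact_mod_cast this
  have h2 : (2 : F) ≠ 0 := by
    intro h
    have : (1 : F) = 0 := by linear_combination h5 - 2 * h
    exact one_ne_zero this
  have hfour : ∀ a : F, a ≠ 0 → a = 1 ∨ a = 2 ∨ a = -2 ∨ a = -1 := by
    intro a ha
    have h1 := FiniteField.pow_card_sub_one_eq_one a ha
    rw [hF] at h1
    have h3 : (a - 1) * ((a - 2) * ((a + 2) * (a + 1))) = 0 := by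
      have h1' : a ^ 4 = 1 := h1
      linear_combination h1' + (1 - a ^ 2) * h5
    rcases mul_eq_zero.1 h3 with h | h
    · exact Or.inl (sub_eq_zero.1 h)
    rcases mul_eq_zero.1 h with h | h
    · exact Or.inr (Or.inl (sub_eq_zero.1 h))
    rcases mul_eq_zero.1 h with h | h
    · exact Or.inr (Or.inr (Or.inl (eq_neg_of_add_eq_zero_left h)))
    · exact Or.inr (Or.inr (Or.inr (eq_neg_of_add_eq_zero_left h)))
  choose x hx y hy hQx hQy hxy hspan hval using
    fun i => exists_hyp_of_plus hQ (hD.decomp.nondegenerate i) (hD.decomp.decomp.finrank_eq i) (hp i)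
  -- the vectors of the frame
  let p : Fin t → Fin 2 → (ι → F) := fun i => ![x i + y i, (2 : F) • x i + (-2 : F) • y i]
  have hp0 : ∀ i, p i 0 = x i + y i := fun i => rfl
  have hp1 : ∀ i, p i 1 = (2 : F) • x i + (-2 : F) • y i := fun i => rfl
  have hpD : ∀ i k, p i k ∈ D i := by
    intro i k
    fin_cases k
    · exact (D i).add_mem (hx i) (hy i)
    · exact (D i).add_mem ((D i).smul_mem _ (hx i)) ((D i).smul_mem _ (hy i))
  have hQp : ∀ i k, Q (p i k) = 1 := by
    intro i k
    fin_cases k
    · show Q (p i 0) = 1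
      rw [hp0]
      have := hval i 1 1
      rwa [one_smul, one_smul, one_mul] at this
    · show Q (p i 1) = 1
      rw [hp1, hval]
      linear_combination - h5
  have hp01 : ∀ i, polar Q (p i 0) (p i 1) = 0 := by
    intro i
    have hbil := hQ.polar_bilinear
    have hxx : polar Q (x i) (x i) = 0 := by rw [polar_self hQ, hQx, mul_zero]
    have hyy : polar Q (y i) (y i) = 0 := by rw [polar_self hQ, hQy, mul_zero]
    have hyx : polar Q (y i) (x i) = 1 := by rw [Cfsg.Agent.H922.polar_symm]; exact hxy i
    rw [hp0, hp1, hbil.add_left, hbil.add_right, hbil.add_right, hbil.smul_right, hbil.smul_right, hbil.smul_right,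
      hbil.smul_right, hxx, hyy, hxy, hyx]
    ring
  have hone : ∀ i, ∀ v ∈ D i, Q v = 1 → ∃ k, v = p i k ∨ v = - p i k := by
    intro i v hv hQv
    obtain ⟨a, c, rfl⟩ := hspan i v hv
    rw [hval] at hQv
    have ha : a ≠ 0 := by
      rintro rfl
      rw [zero_mul] at hQv
      exact zero_ne_one hQv
    rcases hfour a ha with h | h | h | h
    · refine ⟨0, Or.inl ?_⟩
      rw [h, one_mul] at hQv
      rw [h, hQv, hp0, one_smul, one_smul]
    · refine ⟨1, Or.inl ?_⟩
      rw [h] at hQv
      have hc : c = -2 := by linear_combination (-2 : F) * hQv + c * h5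
      rw [h, hc, hp1]
    · refine ⟨1, Or.inr ?_⟩
      rw [h] at hQv
      have hc : c = 2 := by linear_combination (2 : F) * hQv + c * h5
      rw [h, hc, hp1]
      module
    · refine ⟨0, Or.inr ?_⟩
      rw [h] at hQv
      have hc : c = -1 := by linear_combination -hQv
      rw [h, hc, hp0]
      module
  let E : Fin (t * 2) ≃ Fin t × Fin 2 := finProdFinEquiv.symm
  let v : Fin (t * 2) → (ι → F) := fun j => p (E j).1 (E j).2
  have hcard : t * 2 = Fintype.card ι := Cfsg.Agent.H922.mul_eq_card hD.decomp.decomp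
  have horth : ∀ i j, i ≠ j → polar Q (v i) (v j) = 0 := by
    intro i j hij
    have hne : E i ≠ E j := fun h => hij (E.injective h)
    rcases h1 : E i with ⟨i1, i2⟩
    rcases h2' : E j with ⟨j1, j2⟩
    show polar Q (p (E i).1 (E i).2) (p (E j).1 (E j).2) = 0
    rw [h1, h2'] at hne ⊢
    show polar Q (p i1 i2) (p j1 j2) = 0
    by_cases h : i1 = j1
    · subst h
      have hne2 : i2 ≠ j2 := fun h => hne (by rw [h])
      fin_cases i2 <;> fin_cases j2
      · exact absurd rfl hne2
      · exact hp01 i1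
      · show polar Q (p i1 1) (p i1 0) = 0
        rw [Cfsg.Agent.H922.polar_symm]; exact hp01 i1
      · exact absurd rfl hne2
    · exact hD.decomp.orthogonal i1 j1 h _ (hpD _ _) _ (hpD _ _)
  have hD' := Cfsg.Agent.H922.isOrthogonalMDecomposition_of_vectors hQ h2 hcard
    (by have := hD.decomp.decomp.two_le; omega) v one_ne_zero (fun i => hQp _ _) horth
  refine ⟨_, hD', ?_⟩
  rintro g ⟨hgD, hgI⟩
  apply Cfsg.Agent.H922.mem_decompositionStabilizer_of_forall hD'.decomp.decomp
  intro i
  obtain ⟨σ, hσ⟩ := exists_perm_of_mem hgD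
  obtain ⟨k, hk⟩ := hone (σ (E i).1) _ (hσ (E i).1 _ (hpD (E i).1 (E i).2)) (by rw [mem_iso_iff.1 hgI, hQp])
  refine ⟨E.symm (σ (E i).1, k), ?_⟩
  have hvk : v (E.symm (σ (E i).1, k)) = p (σ (E i).1) k := by
    show p (E (E.symm (σ (E i).1, k))).1 (E (E.symm (σ (E i).1, k))).2 = _
    rw [Equiv.apply_symm_apply]
  rw [Submodule.map_span, Set.image_singleton, Matrix.toLin'_apply, hvk]
  rcases hk with h | h
  · show Submodule.span F {(g : Matrix ι ι F) *ᵥ p (E i).1 (E i).2} = _
    rw [h]
  · show Submodule.span F {(g : Matrix ι ι F) *ᵥ p (E i).1 (E i).2} = _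
    rw [h, ← Set.neg_singleton, Submodule.span_neg]

end Cfsg.Agent.H925
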