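import Cfsg.Agent.H925.EvenFine
import Cfsg.Agent.H925.OrthPlane3
import Cfsg.Agent.H925.OrthPlane4
import Cfsg.Agent.H922.MaxSubfield
import Cfsg.Agent.H926.Sub1
import Cfsg.Agent.H926.Deg
import Cfsg.Agent.H924.TensorTwo
import Cfsg.Agent.H924.SympField
import Cfsg.Agent.H912.TensForm3
import Cfsg.Agent.H912.TensForm4

/-!
# Subgroups of the ten-dimensional orthogonal group of plus type
-/

set_option autoImplicit false
set_option linter.unusedSectionVars false

namespace Cfsg.Agent.H925

open QuadraticMap Matrix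
open Cfsg.Agent.H919 (HermForm WreathData)

variable {ι : Type} [Fintype ι] [DecidableEq ι] {F : Type*} [Field F]

/-- q = 2: a plane of plus type has a unique nonsingular vector -/
theorem plus_plane_le_two [Fintype F] (hF : Fintype.card F = 2) {Q : (ι → F) → F}
    (hQ : Geo.IsNondegenerateQuadraticForm Q) {W : Submodule F (ι → F)}
    (hW : Geo.IsNondegenerateOn (polar Q) W) (hd : Module.finrank F W = 2) (hp : Geo.IsPlusTypeOn Q W) :
    ∃ v : ι → F, Q v ≠ 0 ∧ Geo.subspaceStabilizer W ⊓ Cfsg.isometryGroup F Q ≤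
      Geo.subspaceStabilizer (Submodule.span F {v}) := by
  classical
  have hcases : ∀ a : F, a = 0 ∨ a = 1 := by
    intro a
    by_contra hcon
    push Not at hcon
    have h3 : ({0, 1, a} : Finset F).card ≤ Fintype.card F := Finset.card_le_univ _
    rw [Finset.card_eq_three.2 ⟨0, 1, a, zero_ne_one, hcon.1.symm, hcon.2.symm, rfl⟩, hF] at h3
    omega
  obtain ⟨x, hx, y, hy, hQx, hQy, hxy, hspan, hval⟩ := exists_hyp_of_plus hQ hW hd hp
  have hQv : Q (x + y) = 1 := by
    have := hval 1 1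
    rwa [one_smul, one_smul, one_mul] at this
  refine ⟨x + y, by rw [hQv]; exact one_ne_zero, ?_⟩
  have huniq : ∀ v ∈ W, Q v = 1 → v = x + y := by
    intro v hv hQv
    obtain ⟨a, b, rfl⟩ := hspan v hv
    rw [hval] at hQv
    rcases hcases a with rfl | rfl
    · rw [zero_mul] at hQv; exact absurd hQv zero_ne_one
    · rcases hcases b with rfl | rfl
      · rw [mul_zero] at hQv; exact absurd hQv zero_ne_one
      · rw [one_smul, one_smul]
  rintro g ⟨hgW, hgI⟩
  have hfix : (g : Matrix ι ι F) *ᵥ (x + y) = x + y := by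
    apply huniq
    · exact (hgW (x + y)).1 (W.add_mem hx hy)
    · rw [mem_iso_iff.1 hgI, hQv]
  rw [Cfsg.Agent.H884.OmegaGL.mem_subspaceStabilizer]
  intro w hw
  obtain ⟨c, rfl⟩ := Submodule.mem_span_singleton.1 hw
  rw [map_smul]
  apply Submodule.smul_mem
  rw [glEquiv_apply', hfix]
  exact Submodule.mem_span_singleton_self _

/-- **Reducible subgroups.** -/
theorem plus10_reducible [Fintype F] (hn : Fintype.card ι = 10) {Q : (ι → F) → F}
    (hQ : Geo.IsNondegenerateQuadraticForm Q) (hplus : Geo.IsPlusTypeOn Q ⊤) {H : Subgroup (GL ι F)}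
    (hH : H ≤ Geo.omegaGL Q) (hred : ¬ Geo.ActsIrreducibly (Geo.matrixSet H)) :
    (∃ W : Submodule F (ι → F), W ≠ ⊥ ∧ Geo.IsTotallySingularQuad Q W ∧ Module.finrank F W ≠ 4 ∧
      H ≤ Geo.subspaceStabilizer W) ∨
    (Odd (Fintype.card F) ∧ ∃ W : Submodule F (ι → F), W ≠ ⊥ ∧ W ≠ ⊤ ∧ Odd (Module.finrank F W) ∧
      2 * Module.finrank F W ≠ 10 ∧ Geo.IsNondegenerateOn (polar Q) W ∧ H ≤ Geo.subspaceStabilizer W) ∨
    (∃ W : Submodule F (ι → F), Module.finrank F W = 2 ∧ Geo.IsNondegenerateOn (polar Q) W ∧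
      ¬ Geo.IsPlusTypeOn Q W ∧ H ≤ Geo.subspaceStabilizer W) ∨
    (4 ≤ Fintype.card F ∧ ∃ W : Submodule F (ι → F), Module.finrank F W = 2 ∧ Geo.IsNondegenerateOn (polar Q) W ∧
      Geo.IsPlusTypeOn Q W ∧ H ≤ Geo.subspaceStabilizer W) ∨
    (∃ W : Submodule F (ι → F), Module.finrank F W = 4 ∧ Geo.IsNondegenerateOn (polar Q) W ∧
      H ≤ Geo.subspaceStabilizer W) ∨
    (¬ Odd (Fintype.card F) ∧ ∃ v : ι → F, Q v ≠ 0 ∧ H ≤ Geo.subspaceStabilizer (Submodule.span F {v})) ∨
    (Fintype.card F % 4 = 1 ∧ ∃ D : Fin 2 → Submodule F (ι → F), Geo.IsOrthogonalMDecomposition Q 5 D ∧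
      H ≤ Geo.decompositionStabilizer D) ∨
    (Fintype.card F % 4 = 3 ∧ ∃ D : Fin 2 → Submodule F (ι → F), Geo.IsNondegenerateMDecomposition (polar Q) 5 D ∧
      ¬ Geo.AreIsometricFor Q (D 0) (D 1) ∧ H ≤ Geo.decompositionStabilizer D) := by
  have hHI : H ≤ Cfsg.isometryGroup F Q := hH.trans (omegaGL_le_iso Q)
  have hodd : ∀ W : Submodule F (ι → F), Geo.IsNondegenerateOn (polar Q) W → Odd (Module.finrank F W) →
      Odd (Fintype.card F) := by
    intro W hW hWodd
    by_contra hcon
    have h2 := Cfsg.Agent.H926.card_even_iff_two_eq_zero.1 hcon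
    have := Cfsg.Agent.H926.even_on hQ.polar_bilinear W (fun v _ => by rw [polar_self hQ, h2, zero_mul]) hW
    exact (Nat.not_even_iff_odd.2 hWodd) this
  rcases Cfsg.Agent.H924.reducible_cases (hermForm_polar hQ) (fun g hg => polar_iso (hHI hg)) hred with
    ⟨W, hW0, hW, hHW⟩ | ⟨W, hW0, hW, hd, hHW⟩ | ⟨k, D, hD, hHD, -, -⟩
  · rcases isotropic_cases hQ hHI hW0 hW hHW with ⟨W, hW0, hW, hHW⟩ | ⟨h2, v, hv, hHv⟩
    · by_cases h4 : Module.finrank F W = 4
      · obtain ⟨W₁, hle, hs, hd, hst⟩ := exists_stab_half hQ hplus hW (by omega) hH hHW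
        refine Or.inl ⟨W₁, ?_, hs, by omega, hst⟩
        rintro rfl
        rw [finrank_bot] at hd
        omega
      · exact Or.inl ⟨W, hW0, hW, h4, hHW⟩
    · exact Or.inr (Or.inr (Or.inr (Or.inr (Or.inr (Or.inl
        ⟨Cfsg.Agent.H926.card_even_iff_two_eq_zero.2 h2, v, hv, hHv⟩)))))
  · have hpos : Module.finrank F W ≠ 0 := fun h => hW0 (Submodule.finrank_eq_zero.1 h)
    have hWtop : W ≠ ⊤ := by
      rintro rfl
      rw [finrank_top, Module.finrank_fintype_fun_eq_card] at hd
      omega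
    rw [hn] at hd
    have hcases : Odd (Module.finrank F W) ∨ Module.finrank F W = 2 ∨ Module.finrank F W = 4 := by
      rcases Nat.even_or_odd (Module.finrank F W) with h | h
      · obtain ⟨a, ha⟩ := h
        omega
      · exact Or.inl h
    rcases hcases with h | h | h
    · exact Or.inr (Or.inl ⟨hodd W hW h, W, hW0, hWtop, h, by omega, hW, hHW⟩)
    · by_cases hp : Geo.IsPlusTypeOn Q W
      · by_cases h4 : 4 ≤ Fintype.card F
        · exact Or.inr (Or.inr (Or.inr (Or.inl ⟨h4, W, h, hW, hp, hHW⟩)))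
        · have h2 : 2 ≤ Fintype.card F := Fintype.one_lt_card
          have h23 : Fintype.card F = 2 ∨ Fintype.card F = 3 := by omega
          rcases h23 with h2 | h3
          · obtain ⟨v, hv, hle⟩ := plus_plane_le_two h2 hQ hW h hp
            refine Or.inr (Or.inr (Or.inr (Or.inr (Or.inr (Or.inl ⟨?_, v, hv, (le_inf hHW hHI).trans hle⟩)))))
            rw [h2]; decide
          · obtain ⟨W', hd', hW', hle⟩ := Cfsg.Agent.H922.plus_plane_le h3 hQ hW h hp
            rw [hn] at hd'
            refine Or.inr (Or.inl ⟨by rw [h3]; decide, W', ?_, ?_, ?_, by omega, hW',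
              ((le_inf hHW hHI).trans hle).trans inf_le_left⟩)
            · rintro rfl
              rw [finrank_bot] at hd'
              omega
            · rintro rfl
              rw [finrank_top, Module.finrank_fintype_fun_eq_card] at hd'
              omega
            · have : Module.finrank F W' = 9 := by omega
              rw [this]; decide
      · exact Or.inr (Or.inr (Or.inl ⟨W, h, hW, hp, hHW⟩))
    · exact Or.inr (Or.inr (Or.inr (Or.inr (Or.inl ⟨W, h, hW, hHW⟩))))
  · have hk : 2 * k = Fintype.card ι := Cfsg.Agent.H922.mul_eq_card hD.decomp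
    have hk5 : k = 5 := by omega
    subst hk5
    have hoddF : Odd (Fintype.card F) := hodd (D 0) (hD.nondegenerate 0) (by rw [hD.decomp.finrank_eq]; decide)
    have h2 : (2 : F) ≠ 0 := Cfsg.Agent.H922.two_ne_zero_of_odd_card hoddF
    by_cases hsq : IsSquare (-1 : F)
    · have h41 : Fintype.card F % 4 = 1 := by
        have := FiniteField.isSquare_neg_one_iff.1 hsq
        obtain ⟨a, ha⟩ := hoddF
        omega
      have hiso := isometric_of_square hQ h2 hplus hn hD hsq
      refine Or.inr (Or.inr (Or.inr (Or.inr (Or.inr (Or.inr (Or.inl ⟨h41, D, ⟨hD, ?_⟩, hHD⟩))))))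
      obtain ⟨e, he⟩ := hiso
      intro i j
      fin_cases i <;> fin_cases j
      · exact ⟨LinearEquiv.refl F _, fun w => rfl⟩
      · exact ⟨e, he⟩
      · refine ⟨e.symm, fun w => ?_⟩
        have := he (e.symm w)
        rw [LinearEquiv.apply_symm_apply] at this
        exact this.symm
      · exact ⟨LinearEquiv.refl F _, fun w => rfl⟩
    · have h43 : Fintype.card F % 4 = 3 := by
        by_contra hcon
        exact hsq (FiniteField.isSquare_neg_one_iff.2 hcon)
      refine Or.inr (Or.inr (Or.inr (Or.inr (Or.inr (Or.inr (Or.inr ⟨h43, D, hD, ?_, hHD⟩))))))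
      rintro ⟨e, he⟩
      apply hsq
      have hD' : Geo.IsOrthogonalMDecomposition Q 5 D := by
        refine ⟨hD, fun i j => ?_⟩
        fin_cases i <;> fin_cases j
        · exact ⟨LinearEquiv.refl F _, fun w => rfl⟩
        · exact ⟨e, he⟩
        · refine ⟨e.symm, fun w => ?_⟩
          have := he (e.symm w)
          rw [LinearEquiv.apply_symm_apply] at this
          exact this.symm
        · exact ⟨LinearEquiv.refl F _, fun w => rfl⟩
      exact isSquare_neg_one_of_decomp hQ hplus (t := 2) (m := 5) (by decide) (by decide) hn hD'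

end Cfsg.Agent.H925
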