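import Cfsg.Agent.H925.Plus10
import Cfsg.Agent.H926.OverTwo

/-!
# Irreducible subgroups of the ten-dimensional orthogonal group of plus type
-/

set_option autoImplicit false
set_option linter.unusedSectionVars false

namespace Cfsg.Agent.H925

open QuadraticMap Matrix
open Cfsg.Agent.H919 (HermForm WreathData)

variable {ι : Type} [Fintype ι] [DecidableEq ι] {F : Type*} [Field F]

/-- the conclusion for irreducible subgroups -/
def Plus10Irr [Fintype F] (Q : (ι → F) → F) (H : Subgroup (GL ι F)) : Prop :=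
    ((∃ p : ℕ, p.Prime ∧ Fintype.card F = p ∧ (p % 4 = 1)) ∧ ∃ D : Fin 10 → Submodule F (ι → F),
      Geo.IsOrthogonalMDecomposition Q 1 D ∧ H ≤ Geo.decompositionStabilizer D) ∨
    (7 ≤ Fintype.card F ∧ ∃ D : Fin 5 → Submodule F (ι → F), Geo.IsOrthogonalMDecomposition Q 2 D ∧
      H ≤ Geo.decompositionStabilizer D) ∨
    (Fintype.card F % 4 = 1 ∧ ∃ D : Fin 2 → Submodule F (ι → F), Geo.IsOrthogonalMDecomposition Q 5 D ∧
      H ≤ Geo.decompositionStabilizer D) ∨
    (Odd (Fintype.card F) ∧ ∃ K : Subalgebra F (Matrix ι ι F), Geo.IsFieldSubalgebra 2 K ∧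
      Geo.IsSelfAdjointFor (polar Q) K ∧ H ≤ Geo.subalgebraNormalizer K) ∨
    (∃ (F₀ : Subfield F) (r : ℕ) (P : GL ι F) (ζ : F), r.Prime ∧ Fintype.card F = Nat.card F₀ ^ r ∧ ζ ≠ 0 ∧
      Geo.IsQuadFormRationalStructure (fun v : ι → F => ζ * Q v) F₀ P ∧ H ≤ Geo.subfieldSubgroup F₀ P) ∨
    Geo.InOrthogonalResidualClass H

/-- frames -/
theorem plus10_frame [Fintype F] (hn : Fintype.card ι = 10) {Q : (ι → F) → F}
    (hQ : Geo.IsNondegenerateQuadraticForm Q) (hplus : Geo.IsPlusTypeOn Q ⊤) {H : Subgroup (GL ι F)}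
    (hH : H ≤ Cfsg.isometryGroup F Q) {D : Fin 10 → Submodule F (ι → F)}
    (hD : Geo.IsOrthogonalMDecomposition Q 1 D) (hHD : H ≤ Geo.decompositionStabilizer D) :
    Plus10Irr Q H := by
  by_cases hpr : (Fintype.card F).Prime
  · refine Or.inl ⟨⟨_, hpr, rfl, ?_⟩, D, hD, hHD⟩
    have hsq := isSquare_neg_one_of_decomp hQ hplus (t := 10) (m := 5) (by decide) (by decide) hn hD
    have h3 := FiniteField.isSquare_neg_one_iff.1 hsq
    have hodd : Odd (Fintype.card F) := by
      by_contra hcon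
      have h2 := Cfsg.Agent.H926.card_even_iff_two_eq_zero.1 hcon
      have := Cfsg.Agent.H926.even_on hQ.polar_bilinear (D 0) (fun v _ => by rw [polar_self hQ, h2, zero_mul])
        (hD.decomp.nondegenerate 0)
      rw [hD.decomp.decomp.finrank_eq] at this
      exact absurd this (by decide)
    obtain ⟨a, ha⟩ := hodd
    omega
  · obtain ⟨F₀, r, hr, hcard⟩ := Cfsg.Agent.H922.exists_subfield_prime_index hpr
    obtain ⟨P, ζ, hζ, hrat, hle⟩ := frame_le_subfield hQ hD F₀
    exact Or.inr (Or.inr (Or.inr (Or.inr (Or.inl ⟨F₀, r, P, ζ, hr, hcard, hζ, hrat, (le_inf hHD hH).trans hle⟩))))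

/-- nondegenerate decompositions -/
theorem plus10_decomp [Fintype F] (hn : Fintype.card ι = 10) {Q : (ι → F) → F}
    (hQ : Geo.IsNondegenerateQuadraticForm Q) (hplus : Geo.IsPlusTypeOn Q ⊤) {H : Subgroup (GL ι F)}
    (hH : H ≤ Cfsg.isometryGroup F Q) (hirr : Geo.ActsIrreducibly (Geo.matrixSet H)) {t m : ℕ}
    (htm : t * m = Fintype.card ι) {D : Fin t → Submodule F (ι → F)}
    (hD : Geo.IsOrthogonalMDecomposition Q m D) (hHD : H ≤ Geo.decompositionStabilizer D) :
    Plus10Irr Q H := by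
  rw [hn] at htm
  have ht2 := hD.decomp.decomp.two_le
  have hm0 := hD.decomp.decomp.pos
  have htd : t ∣ 10 := ⟨m, htm.symm⟩
  have ht10 : t ≤ 10 := Nat.le_of_dvd (by norm_num) htd
  have hcases : (t = 2 ∧ m = 5) ∨ (t = 5 ∧ m = 2) ∨ (t = 10 ∧ m = 1) := by
    interval_cases t <;> omega
  have hodd : ∀ i, Odd (Module.finrank F (D i)) → Odd (Fintype.card F) := by
    intro i hWodd
    by_contra hcon
    have h2 := Cfsg.Agent.H926.card_even_iff_two_eq_zero.1 hcon
    have := Cfsg.Agent.H926.even_on hQ.polar_bilinear (D i) (fun v _ => by rw [polar_self hQ, h2, zero_mul])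
      (hD.decomp.nondegenerate i)
    exact (Nat.not_even_iff_odd.2 hWodd) this
  rcases hcases with ⟨rfl, rfl⟩ | ⟨rfl, rfl⟩ | ⟨rfl, rfl⟩
  · -- two five-spaces
    have h1 : Odd (Fintype.card F) := hodd 0 (by rw [hD.decomp.decomp.finrank_eq]; decide)
    have hsq := isSquare_neg_one_of_decomp hQ hplus (t := 2) (m := 5) (by decide) (by decide) hn hD
    have h3 := FiniteField.isSquare_neg_one_iff.1 hsq
    refine Or.inr (Or.inr (Or.inl ⟨?_, D, hD, hHD⟩))
    obtain ⟨a, ha⟩ := h1
    omega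
  · -- five planes
    by_cases h7 : 7 ≤ Fintype.card F
    · exact Or.inr (Or.inl ⟨h7, D, hD, hHD⟩)
    have h2 : 2 ≤ Fintype.card F := Fintype.one_lt_card
    -- the planes are of plus type
    have hp : ∀ i, Geo.IsPlusTypeOn Q (D i) := by
      intro i
      by_cases h2 : (2 : F) = 0
      · exact plus_of_decomp_two hQ h2 hplus (by decide) hD i
      · exact plus_of_decomp (k := 1) hQ h2 hplus (by decide) hD i
    have hne6 : Fintype.card F ≠ 6 := by
      intro h6
      obtain ⟨p, k, hp, hk, hpk⟩ := (isPrimePow_nat_iff _).1 (Fintype.isPrimePow_card_of_field (α := F))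
      rw [h6] at hpk
      have h2p : 2 ∣ p ^ k := by rw [hpk]; decide
      have h3p : 3 ∣ p ^ k := by rw [hpk]; decide
      have e2 := (Nat.prime_dvd_prime_iff_eq Nat.prime_two hp).1 (Nat.prime_two.dvd_of_dvd_pow h2p)
      have e3 := (Nat.prime_dvd_prime_iff_eq Nat.prime_three hp).1 (Nat.prime_three.dvd_of_dvd_pow h3p)
      omega
    have hcases : Fintype.card F = 2 ∨ Fintype.card F = 3 ∨ Fintype.card F = 4 ∨ Fintype.card F = 5 := by omega
    rcases hcases with h | h | h | h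
    · exact absurd hirr (not_irreducible_of_plus_two h hQ hD hp hH hHD)
    · exact absurd hirr (not_irreducible_of_plus_three h hQ hD hp hH hHD)
    · obtain ⟨F₀, r, hr, hcard⟩ := Cfsg.Agent.H922.exists_subfield_prime_index (F := F) (by rw [h]; decide)
      obtain ⟨P, hrat, hle⟩ := plus_planes_four h hQ hD hp F₀
      refine Or.inr (Or.inr (Or.inr (Or.inr (Or.inl ⟨F₀, r, P, 1, hr, hcard, one_ne_zero, ?_,
        (le_inf hHD hH).trans hle⟩))))
      intro u hu
      show 1 * Q _ ∈ F₀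
      rw [one_mul]
      exact hrat u hu
    · obtain ⟨D', hD', hle⟩ := plus_planes_five h hQ hD hp
      exact plus10_frame hn hQ hplus hH hD' ((le_inf hHD hH).trans hle)
  · exact plus10_frame hn hQ hplus hH hD hHD

/-- fields of degree two -/
theorem plus10_field_two [Fintype F] (hn : Fintype.card ι = 10) {Q : (ι → F) → F}
    (hQ : Geo.IsNondegenerateQuadraticForm Q) (hplus : Geo.IsPlusTypeOn Q ⊤) {H : Subgroup (GL ι F)}
    (hH : H ≤ Cfsg.isometryGroup F Q) (hirr : Geo.ActsIrreducibly (Geo.matrixSet H))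
    {K : Subalgebra F (Matrix ι ι F)} (hK : Geo.IsFieldSubalgebra 2 K) (hadj : Geo.IsAdjointClosedFor (polar Q) K)
    (hHK : H ≤ Geo.subalgebraNormalizer K) : Plus10Irr Q H := by
  have : Nonempty ι := Fintype.card_pos_iff.1 (by omega)
  by_cases hsa : Geo.IsSelfAdjointFor (polar Q) K
  · refine Or.inr (Or.inr (Or.inr (Or.inl ⟨?_, K, hK, hsa, hHK⟩)))
    by_contra hcon
    have h2 := Cfsg.Agent.H926.card_even_iff_two_eq_zero.1 hcon
    obtain ⟨m, hm, hme⟩ := Cfsg.Agent.H926.even_dim_of_selfAdjoint hQ.polar_bilinear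
      (fun v => by rw [polar_self hQ, h2, zero_mul]) hQ.nondegenerate h2 hK hsa
    obtain ⟨a, ha⟩ := hme
    omega
  · exfalso
    have hsim := Cfsg.Agent.H926.similarity_of_deg_two hQ (by omega) hH hirr hK hHK hadj hsa
    exact not_plus_of_sim hQ (by decide) hK hsim (m := 5) (by decide) hn hplus

/-- **Irreducible subgroups.** -/
theorem plus10_irreducible [Fintype F] (hn : Fintype.card ι = 10) {Q : (ι → F) → F}
    (hQ : Geo.IsNondegenerateQuadraticForm Q) (hplus : Geo.IsPlusTypeOn Q ⊤) {H : Subgroup (GL ι F)}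
    (hH : H ≤ Geo.omegaGL Q) (hirr : Geo.ActsIrreducibly (Geo.matrixSet H)) : Plus10Irr Q H := by
  have hHI : H ≤ Cfsg.isometryGroup F Q := hH.trans (omegaGL_le_iso Q)
  have : Nonempty ι := Fintype.card_pos_iff.1 (by omega)
  -- totally singular pairs
  have hpair : ∀ (m : ℕ) (D : Fin 2 → Submodule F (ι → F)), Geo.IsMDecomposition m D →
      (∀ i, Geo.IsTotallySingularQuad Q (D i)) → ¬ H ≤ Geo.decompositionStabilizer D := by
    intro m D hD hs hHD
    have hm : 2 * m = Fintype.card ι := Cfsg.Agent.H922.mul_eq_card hD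
    have hm5 : m = 5 := by omega
    subst hm5
    have hst := stab_of_pair hQ hD (by decide) hn hs hH hHD 0
    rcases hirr (D 0) (by
      rintro _ ⟨g, hg, rfl⟩ _ ⟨w, hw, rfl⟩
      exact ((hst hg) w).1 hw) with h | h
    · have := hD.finrank_eq 0
      rw [h, finrank_bot] at this
      omega
    · have := hD.finrank_eq 0
      rw [h, finrank_top, Module.finrank_fintype_fun_eq_card, hn] at this
      omega
  -- fields
  have hfield : ∀ (r : ℕ) (K : Subalgebra F (Matrix ι ι F)), r.Prime → r ∣ Fintype.card ι →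
      Geo.IsFieldSubalgebra r K → Geo.IsAdjointClosedFor (polar Q) K → H ≤ Geo.subalgebraNormalizer K →
      Plus10Irr Q H := by
    intro r K hr hrd hK hadj hHK
    rw [hn] at hrd
    have hr25 : r = 2 ∨ r = 5 := by
      have h1 : r ∣ 2 * 5 := hrd
      rcases (Nat.Prime.dvd_mul hr).1 h1 with h | h
      · exact Or.inl ((Nat.prime_dvd_prime_iff_eq hr Nat.prime_two).1 h)
      · exact Or.inr ((Nat.prime_dvd_prime_iff_eq hr Nat.prime_five).1 h)
    rcases hr25 with rfl | rfl
    · exact plus10_field_two hn hQ hplus hHI hirr hK hadj hHK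
    · have hsa : Geo.IsSelfAdjointFor (polar Q) K := by
        rcases Cfsg.Agent.H924.selfAdjoint_or_two (hermForm_polar hQ) hr hK hadj with h | h
        · exact h
        · exact absurd h (by decide)
      rcases Cfsg.Agent.H926.half_degree hQ hirr hHI hK hsa hn hHK with ⟨t, m, D, hD, hHD, -⟩ |
        ⟨m, D, hD, hs, hHD⟩ | ⟨K', hK', hadj', hHK'⟩
      · exact plus10_decomp hn hQ hplus hHI hirr (Cfsg.Agent.H922.mul_eq_card hD.decomp)
          (Cfsg.Agent.H922.isOrthogonalMDecomposition_of_irreducible hirr hHI hD hHD) hHD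
      · exact absurd hHD (hpair m D hD (quad_pair hQ hHI hirr (by omega) hD hs hHD))
      · exact plus10_field_two hn hQ hplus hHI hirr hK' hadj' hHK'
  -- the second factor of a tensor decomposition has dimension five in the wrong order: reduce to `n₂ = 5`, `n₁ = 2`
  have htens : ∀ (e : ι ≃ Fin 2 × Fin 5) (P : GL ι F) (ε : F) (f₁ : (Fin 2 → F) → (Fin 2 → F) → F)
      (f₂ : (Fin 5 → F) → (Fin 5 → F) → F), (ε = 1 ∨ ε = -1) → HermForm (RingEquiv.refl F) ε f₁ →
      HermForm (RingEquiv.refl F) ε f₂ → Geo.IsTensorFormStructure id (polar Q) f₁ f₂ e P →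
      H ≤ Geo.tensorProductSubgroup 2 5 e P → Plus10Irr Q H := by
    intro e P ε f₁ f₂ hε hf₁ hf₂ hT hHT
    have hbil₂ : Geo.IsBilinearForm f₂ :=
      ⟨hf₂.add_left, hf₂.smul_left, hf₂.add_right, fun c v x => hf₂.smul_right v c x⟩
    have hnalt : ¬ ∀ v, f₂ v v = 0 := by
      intro halt
      have hnd : Geo.IsNondegenerateOn f₂ ⊤ := by
        intro w _ hw0
        obtain ⟨⟨x, hx⟩, ⟨y, hy⟩⟩ := hf₂.nondegenerate w hw0
        exact ⟨⟨x, trivial, hx⟩, ⟨y, trivial, hy⟩⟩
      have := Cfsg.Agent.H926.even_on hbil₂ ⊤ (fun v _ => halt v) hnd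
      rw [finrank_top, Module.finrank_fintype_fun_eq_card, Fintype.card_fin] at this
      exact absurd this (by decide)
    by_cases h2 : (2 : F) = 0
    · exfalso
      apply hnalt
      exact Cfsg.Agent.H912.second_alternating h2 (by norm_num) (by norm_num) hf₁ hf₂ (e := e) (P := P)
        hT hirr hHT (fun g hg => polar_iso (hHI hg))
    · have hε1 : ε = 1 := by
        rcases hε with h | h
        · exact h
        · exfalso
          apply hnalt
          intro v
          have := hf₂.herm v v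
          rw [h] at this
          have h3 : f₂ v v = -1 * f₂ v v := this
          have h4 : 2 * f₂ v v = 0 := by linear_combination h3
          exact (mul_eq_zero.1 h4).resolve_left h2
      subst hε1
      rcases Cfsg.Agent.H924.cases_of_tensor_two h2 (hermForm_polar hQ) hirr (fun g hg => polar_iso (hHI hg))
        (n₁ := 5) (by norm_num) hf₂ hf₁ (Cfsg.Agent.H912.isTensorFormStructure_swap hT)
        (by rw [Cfsg.Agent.H912.tensorProductSubgroup_swap]; exact hHT) with
        ⟨t, m, D, hD, hHD, -⟩ | ⟨m, D, hD, hs, hHD⟩ | ⟨r, K, hr, hK, hadj, hHK⟩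
      · exact plus10_decomp hn hQ hplus hHI hirr (Cfsg.Agent.H922.mul_eq_card hD.decomp)
          (Cfsg.Agent.H922.isOrthogonalMDecomposition_of_irreducible hirr hHI hD hHD) hHD
      · exact absurd hHD (hpair m D hD (quad_pair hQ hHI hirr (by omega) hD hs hHD))
      · exact hfield r K hr (Cfsg.Agent.H912.finrank_dvd_of_fieldSub hK) hK hadj hHK
  rcases orth_irreducible_fine (by omega) hQ hHI hirr with
    ⟨t, m, D, htm, hD, hHD, -⟩ | ⟨m, D, hm, hD, hs, hHD⟩ | ⟨r, K, hr, hrd, hK, hadj, hHK⟩ |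
    ⟨n₁, n₂, e, P, ε, f₁, f₂, h1, h2, h12, hε, hf1, hf2, hT, hHT⟩ |
    ⟨F₁, r, B, ζ, hF₁, hr, hcard, hζ, hrat, hle⟩ | ⟨r, m, R, -, -, -, -, hR, -, hm, hrm, -⟩ |
    ⟨m, t, e, P, E, hmt, hw⟩ | h
  · exact plus10_decomp hn hQ hplus hHI hirr htm hD hHD
  · exact absurd hHD (hpair m D hD hs)
  · exact hfield r K hr hrd hK hadj hHK
  · rw [hn] at h12
    have hd : n₁ ∣ 10 := ⟨n₂, h12.symm⟩
    have hle : n₁ ≤ 10 := Nat.le_of_dvd (by norm_num) hd
    have hcases : (n₁ = 2 ∧ n₂ = 5) ∨ (n₁ = 5 ∧ n₂ = 2) := by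
      interval_cases n₁ <;> omega
    rcases hcases with ⟨rfl, rfl⟩ | ⟨rfl, rfl⟩
    · exact htens e P ε f₁ f₂ hε hf1 hf2 hT hHT
    · exact htens _ P ε f₂ f₁ hε hf2 hf1 (Cfsg.Agent.H912.isTensorFormStructure_swap hT)
        (by rw [Cfsg.Agent.H912.tensorProductSubgroup_swap]; exact hHT)
  · refine Or.inr (Or.inr (Or.inr (Or.inr (Or.inl ⟨F₁, r, B, ζ, hr, ?_, hζ, ?_, hle⟩))))
    · rw [← Nat.card_eq_fintype_card]; exact hcard
    · exact Cfsg.Agent.H926.quadRational_of_formRational hQ (by omega) hHI hirr hle hζ hrat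
  · exfalso
    rw [hn] at hrm
    have h2 : 2 ∣ r ^ m := by rw [← hrm]; decide
    have h5 : 5 ∣ r ^ m := by rw [← hrm]; decide
    have e2 := (Nat.prime_dvd_prime_iff_eq Nat.prime_two hR.prime).1 (Nat.prime_two.dvd_of_dvd_pow h2)
    have e5 := (Nat.prime_dvd_prime_iff_eq Nat.prime_five hR.prime).1 (Nat.prime_five.dvd_of_dvd_pow h5)
    omega
  · exfalso
    rw [hn] at hmt
    have hm2 := hw.two_le_m
    have ht2 := hw.two_le_t
    have hm3 : m ≤ 3 := by
      by_contra hcon
      have h4 : 4 ^ 2 ≤ m ^ t := (Nat.pow_le_pow_left (by omega) 2).trans (Nat.pow_le_pow_right (by omega) ht2)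
      omega
    have ht3 : t ≤ 3 := by
      by_contra hcon
      have h4 : 2 ^ 4 ≤ m ^ t := (Nat.pow_le_pow_left hm2 4).trans (Nat.pow_le_pow_right (by omega) (by omega))
      omega
    interval_cases m <;> interval_cases t <;> omega
  · exact Or.inr (Or.inr (Or.inr (Or.inr (Or.inr h))))

end Cfsg.Agent.H925
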